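import Cfsg.Agent.Lib.BlockH.StableIndex
import Cfsg.Agent.Lib.BlockH.FusionB

/-!
# Elementary facts towards nilpotent blocks
-/

set_option linter.unusedSectionVars false
set_option linter.style.haveILetI false
set_option autoImplicit false

namespace Cfsg.Agent.Lib.BlockNil.Basic

open Cfsg MonoidAlgebra
open Cfsg.Agent.Lib.Blocks.Local Cfsg.Agent.Lib.Blocks.Central Cfsg.Agent.Lib.Blocks.Brauer
open Cfsg.Agent.Lib.Blocks.Induced Cfsg.Agent.Lib.Blocks.Weak Cfsg.Agent.Lib.Blocks.Third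
open Cfsg.Agent.Lib.Blocks.Defect Cfsg.Agent.Lib.Blocks.Defect2 Cfsg.Agent.Lib.BlockT.SylowIn
open Cfsg.Agent.Lib.Blocks.Inducing Cfsg.Agent.Lib.Blocks.FMT
open Cfsg.Agent.Lib.BlockH.Pairs Cfsg.Agent.Lib.BlockH.BrauerMap Cfsg.Agent.Lib.BlockH.Transport
open Cfsg.Agent.Lib.BlockH.Subpair Cfsg.Agent.Lib.BlockH.SubpairLE Cfsg.Agent.Lib.BlockH.ConjPair
open Cfsg.Agent.Lib.BlockH.MaxPair Cfsg.Agent.Lib.BlockH.Sylow Cfsg.Agent.Lib.BlockH.Defects
open Cfsg.Agent.Lib.BlockH.FusionB Cfsg.Agent.Lib.BlockH.StabBlock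

universe u

variable {G : Type u} [Group G] [Fintype G] {M : Ideal AlgInt} {p : ℕ}
variable {B : Set (IrrCharacter G)} {P : Subgroup G}
  {e : Set (IrrCharacter (Subgroup.centralizer (P : Set G)))}

/-- A Brauer pair of `B` at `P` forces a coefficient of the idempotent of `B` outside `M` at an
element of `C_G(P)`. -/
theorem exists_coeff_of_pair (hM : IsPModular p M) (hP : IsBrauerPairOf p M B P e) :
    ∃ c ∈ Subgroup.centralizer (P : Set G), ¬ MemLocalIdeal M (blockCoeff B c) := by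
  classical
  haveI := isPrime_of_pModular hM
  letI : Fintype (Subgroup.centralizer (P : Set G)) := Fintype.ofFinite _
  haveI := Cfsg.Agent.Lib.Char.Ortho.finite_irrCharacter (G := Subgroup.centralizer (P : Set G))
  letI : Fintype (IrrCharacter (Subgroup.centralizer (P : Set G))) := Fintype.ofFinite _
  haveI := Cfsg.Agent.Lib.Char.Ortho.finite_irrCharacter (G := G)
  letI : Fintype (IrrCharacter G) := Fintype.ofFinite _
  obtain ⟨ξ, hξ⟩ := isPBlock_nonempty hP.1.2
  have h1 := hP.2.2 ξ hξ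
  rw [brauerOmega_blockCoeff] at h1
  by_contra hno
  push Not at hno
  have hno' : ∀ c ∈ Subgroup.centralizer (P : Set G), MemLocalIdeal M ((idem B : GA G).coeff c) := by
    intro c hc
    rw [coeff_idem]
    exact hno c hc
  have h2 := brH_memLocalIdeal_of_forall (ξ := ξ) (QInv.of_central (isCentral_of_mem (idem B))) hno'
  have h3 := memLocalIdeal_sub h2 h1
  rw [show brH P ξ (idem B : GA G) - (brH P ξ (idem B : GA G) - 1) = 1 by ring] at h3
  exact one_notMemLocalIdeal h3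

/-- An automorphism of a set given by conjugation: an element of order prime to `p` acting as a
`p`-element centralizes. -/
theorem conj_eq_of_regular {x q r : G} (hp : p.Prime) (hq : IsPGroup p (Subgroup.zpowers q))
    (hx : IsPRegular p x)
    {R : Subgroup G} (hxR : ∀ y ∈ R, x * y * x⁻¹ = q * y * q⁻¹) (hxN : ∀ y ∈ R, x * y * x⁻¹ ∈ R)
    (hr : r ∈ R) : x * r * x⁻¹ = r := by
  classical
  -- the powers
  have hpow : ∀ (n : ℕ) (y : G), y ∈ R → x ^ n * y * (x ^ n)⁻¹ = q ^ n * y * (q ^ n)⁻¹ ∧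
      x ^ n * y * (x ^ n)⁻¹ ∈ R := by
    intro n
    induction n with
    | zero => intro y hy; simpa using hy
    | succ n ih =>
      intro y hy
      have h1 := ih y hy
      have h2 : x ^ (n + 1) * y * (x ^ (n + 1))⁻¹ = x * (x ^ n * y * (x ^ n)⁻¹) * x⁻¹ := by
        rw [pow_succ']; group
      have h3 : q ^ (n + 1) * y * (q ^ (n + 1))⁻¹ = q * (q ^ n * y * (q ^ n)⁻¹) * q⁻¹ := by
        rw [pow_succ']; group
      rw [h2, h3]
      refine ⟨?_, hxN _ h1.2⟩
      rw [hxR _ h1.2, h1.1]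
  obtain ⟨k, hk⟩ := hq ⟨q, Subgroup.mem_zpowers q⟩
  have hqk : q ^ (p ^ k) = 1 := by
    have := congrArg Subtype.val hk
    simpa using this
  have h1 : x ^ (p ^ k) * r * (x ^ (p ^ k))⁻¹ = r := by
    rw [(hpow _ r hr).1, hqk]; group
  have hcop : Nat.Coprime (p ^ k) (orderOf x) :=
    Nat.Coprime.pow_left _ ((Nat.Prime.coprime_iff_not_dvd hp).mpr hx)
  -- in the centralizer of r
  have hmem : ∀ n : ℕ, x ^ n * r * (x ^ n)⁻¹ = r → x ^ n ∈ Subgroup.centralizer ({r} : Set G) := by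
    intro n hn
    rw [Subgroup.mem_centralizer_iff]
    intro s hs
    rw [Set.mem_singleton_iff] at hs
    subst hs
    calc s * x ^ n = (x ^ n * s * (x ^ n)⁻¹) * x ^ n := by rw [hn]
      _ = x ^ n * s := by group
  have h3 := hmem _ h1
  have h5 : x ∈ Subgroup.centralizer ({r} : Set G) := by
    obtain ⟨m, hm⟩ := exists_pow_eq_self_of_coprime hcop
    rw [← hm]
    exact Subgroup.pow_mem _ h3 m
  have := Subgroup.mem_centralizer_iff.mp h5 r rfl
  rw [← this]
  group

end Cfsg.Agent.Lib.BlockNil.Basic
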