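import Cfsg.Agent.Lib.BlockNil.Basic
import Cfsg.Agent.Lib.BlockH.Descent
import Cfsg.Agent.Lib.Blocks.CentralDefect

/-!
# Maximal Brauer pairs through their blocks
-/

set_option linter.unusedSectionVars false
set_option linter.style.haveILetI false
set_option autoImplicit false

namespace Cfsg.Agent.Lib.BlockNil.MaxChar

open Cfsg MonoidAlgebra
open Cfsg.Agent.Lib.Blocks.Local Cfsg.Agent.Lib.Blocks.Central Cfsg.Agent.Lib.Blocks.Brauer
open Cfsg.Agent.Lib.Blocks.Induced Cfsg.Agent.Lib.Blocks.Weak Cfsg.Agent.Lib.Blocks.Third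
open Cfsg.Agent.Lib.Blocks.Defect Cfsg.Agent.Lib.Blocks.Defect2 Cfsg.Agent.Lib.BlockT.SylowIn
open Cfsg.Agent.Lib.Blocks.Inducing Cfsg.Agent.Lib.Blocks.FMT
open Cfsg.Agent.Lib.BlockH.Pairs Cfsg.Agent.Lib.BlockH.BrauerMap Cfsg.Agent.Lib.BlockH.Transport
open Cfsg.Agent.Lib.BlockH.Subpair Cfsg.Agent.Lib.BlockH.SubpairLE Cfsg.Agent.Lib.BlockH.ConjPair
open Cfsg.Agent.Lib.BlockH.MaxPair Cfsg.Agent.Lib.BlockH.Sylow Cfsg.Agent.Lib.BlockH.Defects
open Cfsg.Agent.Lib.BlockH.FusionB Cfsg.Agent.Lib.BlockH.StabBlock Cfsg.Agent.Lib.BlockH.StabDefect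
open Cfsg.Agent.Lib.BlockH.Descent Cfsg.Agent.Lib.BlockH.StableIndex

universe u

variable {G : Type u} [Group G] [Fintype G] {M : Ideal AlgInt} {p : ℕ}
variable {B : Set (IrrCharacter G)} {Q : Subgroup G}
  {e : Set (IrrCharacter (Subgroup.centralizer (Q : Set G)))}

section Sub

variable {K H : Subgroup G}

/-- The transport of a set of characters of `K ≤ H` to `K` as a subgroup of `H`. -/
noncomputable def subBlock (hKH : K ≤ H) (f : Set (IrrCharacter K)) : Set (IrrCharacter (K.subgroupOf H)) :=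
  blockMap (Subgroup.subgroupOfEquivOfLe hKH).symm f

theorem isPBlock_subBlock (hKH : K ≤ H) {f : Set (IrrCharacter K)} (hf : IsPBlock M f) :
    IsPBlock M (subBlock hKH f) :=
  isPBlock_blockMap _ hf

theorem subgroupBlockCoeff_subBlock (hKH : K ≤ H) (f : Set (IrrCharacter K)) (t : H) :
    subgroupBlockCoeff (K.subgroupOf H) (subBlock hKH f) t = subgroupBlockCoeff K f (t : G) := by
  classical
  unfold subgroupBlockCoeff
  by_cases ht : (t : G) ∈ K
  · have ht' : t ∈ K.subgroupOf H := Subgroup.mem_subgroupOf.mpr ht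
    rw [dif_pos ht, dif_pos ht']
    exact blockCoeff_blockMap (Subgroup.subgroupOfEquivOfLe hKH).symm f ⟨t, ht⟩
  · have ht' : t ∉ K.subgroupOf H := fun h => ht (Subgroup.mem_subgroupOf.mp h)
    rw [dif_neg ht, dif_neg ht']

theorem stabilizesBlock_subBlock (hKH : K ≤ H) {f : Set (IrrCharacter K)} {t : H}
    (ht : (t : G) ∈ Subgroup.normalizer (K : Set G)) (hs : StabilizesBlock K f (t : G)) :
    StabilizesBlock (K.subgroupOf H) (subBlock hKH f) t := by
  refine stabilizesBlock_transport (Subgroup.subgroupOfEquivOfLe hKH).symm (u := (t : G)) ?_ ?_ hs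
  · rw [Subgroup.mem_normalizer_iff]
    intro k
    have h1 := Subgroup.mem_normalizer_iff.mp ht (k : G)
    change k ∈ K.subgroupOf H ↔ t * k * t⁻¹ ∈ K.subgroupOf H
    rw [Subgroup.mem_subgroupOf, Subgroup.mem_subgroupOf]
    exact h1
  · intro k k' hk'
    exact congrArg Subtype.val hk'

end Sub

/-- **An element of `p`-power order stabilizing the block of a maximal pair lies in `Q C(Q)`.** -/
theorem mem_sup_of_isMaximal [Fact p.Prime] (hM : IsPModular p M) (hmax : IsMaximalBrauerPair p M B Q e)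
    {g : G} (hgN : g ∈ Subgroup.normalizer (Q : Set G))
    (hgs : StabilizesBlock (Subgroup.centralizer (Q : Set G)) e g) (hk : ∃ k : ℕ, orderOf g = p ^ k) :
    g ∈ Q ⊔ Subgroup.centralizer (Q : Set G) := by
  classical
  haveI := isPrime_of_pModular hM
  letI : Fintype (Subgroup.centralizer (Q : Set G)) := Fintype.ofFinite _
  haveI := Cfsg.Agent.Lib.Char.Ortho.finite_irrCharacter (G := Subgroup.centralizer (Q : Set G))
  letI : Fintype (IrrCharacter (Subgroup.centralizer (Q : Set G))) := Fintype.ofFinite _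
  have hQe := hmax.1.1
  have hQp : IsPGroup p Q := hQe.1
  have he := hQe.2
  have hgp : IsPGroup p (Subgroup.zpowers g) := by
    obtain ⟨k, hk⟩ := hk
    refine IsPGroup.of_card (n := k) ?_
    rw [Nat.card_zpowers, hk]
  have hgZ : Subgroup.zpowers g ≤ Subgroup.normalizer (Q : Set G) := Subgroup.zpowers_le.mpr hgN
  set Q₁ : Subgroup G := Subgroup.zpowers g ⊔ Q with hQ₁
  have hQ₁p : IsPGroup p Q₁ := hgp.to_sup_of_normal_right' hQp hgZ
  have hQ₁N : Q₁ ≤ Subgroup.normalizer (Q : Set G) := sup_le hgZ Subgroup.le_normalizer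
  have hCN : (Subgroup.centralizer (Q : Set G)) ≤ Subgroup.normalizer (Q : Set G) := centralizer_le_normalizer'' Q
  set H : Subgroup G := Q₁ ⊔ (Subgroup.centralizer (Q : Set G)) with hH
  have hHN : H ≤ Subgroup.normalizer (Q : Set G) := sup_le hQ₁N hCN
  have hCH : (Subgroup.centralizer (Q : Set G)) ≤ H := le_sup_right
  have hQH : Q ≤ H := (le_sup_right : Q ≤ Q₁).trans le_sup_left
  have hHNC : H ≤ Subgroup.normalizer ((Subgroup.centralizer (Q : Set G)) : Set G) := fun _ hu => mem_normalizer_centralizer (hHN hu)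
  have hHst : H ≤ stabSub Q e := by
    refine sup_le (sup_le (Subgroup.zpowers_le.mpr ⟨hgN, hgs⟩) (P_le_stabSub hQe hM)) ?_
    intro c hc
    exact ⟨hCN hc, stabilizesBlock_of_mem Q e hc⟩
  have hN : ((Subgroup.centralizer (Q : Set G)).subgroupOf H).Normal :=
    (Subgroup.normal_subgroupOf_iff_le_normalizer hCH).mpr hHNC
  letI : Fintype H := Fintype.ofFinite _
  haveI := Cfsg.Agent.Lib.Char.Ortho.finite_irrCharacter (G := H)
  letI : Fintype (IrrCharacter H) := Fintype.ofFinite _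
  have hidx : ∃ k : ℕ, ((Subgroup.centralizer (Q : Set G)).subgroupOf H).index = p ^ k := by
    haveI := hN
    have hQ₁le : Q₁ ≤ H := le_sup_left
    let φ : Q₁ →* H ⧸ (Subgroup.centralizer (Q : Set G)).subgroupOf H := (QuotientGroup.mk' _).comp (Subgroup.inclusion hQ₁le)
    have hφ : Function.Surjective φ := by
      intro x
      obtain ⟨t, rfl⟩ := QuotientGroup.mk'_surjective _ x
      have hQ₁C : Q₁ ≤ Subgroup.normalizer ((Subgroup.centralizer (Q : Set G)) : Set G) := hQ₁le.trans hHNC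
      have ht : (t : G) ∈ ((Q₁ ⊔ (Subgroup.centralizer (Q : Set G)) : Subgroup G) : Set G) := t.2
      rw [Subgroup.coe_mul_of_left_le_normalizer_right _ _ hQ₁C] at ht
      obtain ⟨q, hq, c, hc, hqc⟩ := Set.mem_mul.mp ht
      refine ⟨⟨q, hq⟩, ?_⟩
      change ((⟨q, hQ₁le hq⟩ : H) : H ⧸ (Subgroup.centralizer (Q : Set G)).subgroupOf H) = t
      rw [QuotientGroup.eq]
      apply Subgroup.mem_subgroupOf.mpr
      have : ((⟨q, hQ₁le hq⟩ : H)⁻¹ * t : H).1 = c := by
        simp only [Subgroup.coe_mul, Subgroup.coe_inv]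
        rw [← hqc]
        group
      rw [this]
      exact hc
    have hp := hQ₁p.of_surjective φ hφ
    obtain ⟨k, hk⟩ := IsPGroup.iff_card.mp hp
    exact ⟨k, by rw [Subgroup.index_eq_card, hk]⟩
  have hf' := isPBlock_subBlock (M := M) hCH he
  have hst' : ∀ t : H, StabilizesBlock ((Subgroup.centralizer (Q : Set G)).subgroupOf H) (subBlock hCH e) t :=
    fun t => stabilizesBlock_subBlock hCH (hHNC t.2) (hHst t.2).2
  obtain ⟨F, hF, hFc⟩ := exists_block_of_stable_index hM hN hidx hf' hst'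
  obtain ⟨D, hD⟩ := exists_isDefectGroup (p := p) hF
  have htop := (sup_eq_top_and_defect hM hN hidx hf' hst' hFc hD).1
  obtain ⟨y, hy, hs⟩ := isDefectGroup_isSylowIn hD
  obtain ⟨E, hE⟩ : ∃ E : Subgroup G, E = D.map H.subtype := ⟨_, rfl⟩
  have hEH : E ≤ H := by
    rw [hE]
    rintro _ ⟨d, -, rfl⟩
    exact d.2
  have hEp : IsPGroup p E := hE ▸ (isDefectGroup_isPGroup hD).map _
  have hQE : Q ≤ E := by
    have hn : (Q.subgroupOf H).Normal := (Subgroup.normal_subgroupOf_iff_le_normalizer hQH).mpr hHN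
    have hp : IsPGroup p (Q.subgroupOf H) :=
      hQp.comap_of_injective (H.subtype) (Subgroup.subtype_injective _)
    have h1 := normal_le_defect hM hF hD hn hp
    intro q hq
    rw [hE]
    exact ⟨⟨q, hQH hq⟩, h1 (Subgroup.mem_subgroupOf.mpr hq), rfl⟩
  have hyC : (y : G) ∈ Subgroup.centralizer (E : Set G) := by
    rw [Subgroup.mem_centralizer_iff]
    intro u hu
    rw [hE] at hu
    obtain ⟨d, hd, rfl⟩ := hu
    have := hs.le hd
    rw [Subgroup.mem_centralizer_singleton_iff] at this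
    exact congrArg Subtype.val this
  have hnc : ¬ MemLocalIdeal M (subgroupBlockCoeff (Subgroup.centralizer (Q : Set G)) e (y : G)) := by
    rw [← subgroupBlockCoeff_subBlock hCH, ← hFc]
    exact hy.2.1
  obtain ⟨g₀, hg₀⟩ := exists_normalSubpair_of_coeff hM hQE (hEH.trans hHN) hEp he
    (fun u hu => (hHst (hEH hu)).2) hyC hnc
  have hRB := (normal_isBrauerPairOf_iff hM hg₀ hmax.1.2.1).mpr hmax.1
  have hEQ : E = Q := hmax.2 E g₀ hRB (Relation.ReflTransGen.single hg₀)
  have hgH : g ∈ H := (le_sup_left : Subgroup.zpowers g ≤ Q₁).trans le_sup_left (Subgroup.mem_zpowers g)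
  have h1 : (⟨g, hgH⟩ : H) ∈ (((Subgroup.centralizer (Q : Set G)).subgroupOf H ⊔ D : Subgroup H) : Set H) := by
    rw [htop]
    trivial
  haveI := hN
  rw [Subgroup.normal_mul] at h1
  obtain ⟨n, hn, d, hd, hnd⟩ := Set.mem_mul.mp h1
  have h2 : g = (n : G) * d := (congrArg Subtype.val hnd).symm
  have hdQ : (d : G) ∈ Q := by
    rw [← hEQ, hE]
    exact ⟨d, hd, rfl⟩
  rw [h2]
  exact Subgroup.mul_mem _ (Subgroup.mem_sup_right (Subgroup.mem_subgroupOf.mp hn))
    (Subgroup.mem_sup_left hdQ)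

/-- The central subgroup `Z(Q)` of `C_G(Q)` as a subgroup of `C_G(Q)`. -/
abbrev cenZ (Q : Subgroup G) : Subgroup (Subgroup.centralizer (Q : Set G)) :=
  (Q ⊓ Subgroup.centralizer (Q : Set G)).subgroupOf (Subgroup.centralizer (Q : Set G))

theorem cenZ_le_center : cenZ Q ≤ Subgroup.center (Subgroup.centralizer (Q : Set G)) := by
  intro z hz
  rw [Subgroup.mem_center_iff]
  intro c
  have h1 : (z : G) ∈ Q := (Subgroup.mem_inf.mp (Subgroup.mem_subgroupOf.mp hz)).1
  exact Subtype.ext (Subgroup.mem_centralizer_iff.mp c.2 _ h1).symm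

theorem cenZ_normal : (cenZ Q).Normal := by
  refine ⟨fun z hz c => ?_⟩
  have h : c * z = z * c := Subgroup.mem_center_iff.mp (cenZ_le_center hz) c
  rw [h, mul_inv_cancel_right]
  exact hz

theorem cenZ_isPGroup (hQ : IsPGroup p Q) : IsPGroup p (cenZ Q) :=
  (hQ.to_le inf_le_left).comap_of_injective _ (Subgroup.subtype_injective _)

/-- **`Z(Q)` is a defect group of the block of a maximal pair.** -/
theorem isDefectGroup_of_isMaximal' [Fact p.Prime] (hM : IsPModular p M)
    (hmax : IsMaximalBrauerPair p M B Q e) : IsDefectGroup p M e (cenZ Q) := by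
  classical
  haveI := isPrime_of_pModular hM
  have hQe := hmax.1.1
  have hQp : IsPGroup p Q := hQe.1
  have he := hQe.2
  letI : Fintype (Subgroup.centralizer (Q : Set G)) := Fintype.ofFinite _
  haveI := Cfsg.Agent.Lib.Char.Ortho.finite_irrCharacter (G := Subgroup.centralizer (Q : Set G))
  letI : Fintype (IrrCharacter (Subgroup.centralizer (Q : Set G))) := Fintype.ofFinite _
  obtain ⟨D, hD⟩ := exists_isDefectGroup (p := p) he
  obtain ⟨y, hy, hs⟩ := isDefectGroup_isSylowIn hD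
  have hCN : Subgroup.centralizer (Q : Set G) ≤ Subgroup.normalizer (Q : Set G) := centralizer_le_normalizer'' Q
  have hDC : D.map (Subgroup.centralizer (Q : Set G)).subtype ≤ Subgroup.centralizer (Q : Set G) := by
    rintro _ ⟨d, -, rfl⟩
    exact d.2
  have hDp : IsPGroup p (D.map (Subgroup.centralizer (Q : Set G)).subtype) :=
    (isDefectGroup_isPGroup hD).map _
  obtain ⟨E, hE⟩ : ∃ E : Subgroup G, E = Q ⊔ D.map (Subgroup.centralizer (Q : Set G)).subtype := ⟨_, rfl⟩
  have hEp : IsPGroup p E := hE ▸ hQp.to_sup_of_normal_left' hDp (hDC.trans hCN)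
  have hQE : Q ≤ E := hE ▸ le_sup_left
  have hDE : D.map (Subgroup.centralizer (Q : Set G)).subtype ≤ E := hE ▸ le_sup_right
  have hEs : E ≤ stabSub Q e := by
    rw [hE]
    refine sup_le (P_le_stabSub hQe hM) (hDC.trans ?_)
    intro c hc
    exact ⟨hCN hc, stabilizesBlock_of_mem Q e hc⟩
  have hyC : ((y : Subgroup.centralizer (Q : Set G)) : G) ∈ Subgroup.centralizer (E : Set G) := by
    rw [Subgroup.mem_centralizer_iff]
    intro u hu
    have hle : E ≤ Subgroup.centralizer ({(y : G)} : Set G) := by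
      rw [hE]
      refine sup_le ?_ ?_
      · intro q hq
        rw [Subgroup.mem_centralizer_singleton_iff]
        exact (Subgroup.mem_centralizer_iff.mp y.2 q hq)
      · rintro _ ⟨d, hd, rfl⟩
        have := hs.le hd
        rw [Subgroup.mem_centralizer_singleton_iff] at this ⊢
        exact congrArg Subtype.val this
    have := hle hu
    rw [Subgroup.mem_centralizer_singleton_iff] at this
    exact this
  have hnc : ¬ MemLocalIdeal M (subgroupBlockCoeff (Subgroup.centralizer (Q : Set G)) e (y : G)) := by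
    rw [coeff_eq_of_mem y.2]
    exact hy.2.1
  obtain ⟨g₀, hg₀⟩ := exists_normalSubpair_of_coeff hM hQE (fun u hu => (hEs hu).1) hEp he
    (fun u hu => (hEs hu).2) hyC hnc
  have hRB := (normal_isBrauerPairOf_iff hM hg₀ hmax.1.2.1).mpr hmax.1
  have hEQ : E = Q := hmax.2 E g₀ hRB (Relation.ReflTransGen.single hg₀)
  have hDZ : D ≤ cenZ Q := by
    intro d hd
    refine Subgroup.mem_subgroupOf.mpr (Subgroup.mem_inf.mpr ⟨?_, d.2⟩)
    have hdE : (d : G) ∈ E := hDE ⟨d, hd, rfl⟩
    rw [hEQ] at hdE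
    exact hdE
  have hZD : cenZ Q ≤ D := normal_le_defect hM he hD cenZ_normal (cenZ_isPGroup hQp)
  rw [le_antisymm hZD hDZ]
  exact hD

/-- **A pair with central defect `Z(Q)` and no further fusion of `p`-elements is maximal.** -/
theorem isMaximal_of_defect [Fact p.Prime] (hM : IsPModular p M) (hB : IsBrauerPairOf p M B Q e)
    (hZ : IsDefectGroup p M e (cenZ Q))
    (h3 : ∀ g : G, g ∈ Subgroup.normalizer (Q : Set G) →
      StabilizesBlock (Subgroup.centralizer (Q : Set G)) e g → (∃ k : ℕ, orderOf g = p ^ k) →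
        g ∈ Q ⊔ Subgroup.centralizer (Q : Set G)) :
    IsMaximalBrauerPair p M B Q e := by
  classical
  haveI := isPrime_of_pModular hM
  have hQe := hB.1
  have hQp : IsPGroup p Q := hQe.1
  have he := hQe.2
  letI : Fintype (Subgroup.centralizer (Q : Set G)) := Fintype.ofFinite _
  haveI := Cfsg.Agent.Lib.Char.Ortho.finite_irrCharacter (G := Subgroup.centralizer (Q : Set G))
  letI : Fintype (IrrCharacter (Subgroup.centralizer (Q : Set G))) := Fintype.ofFinite _
  refine ⟨hB, fun R g hRg hle => ?_⟩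
  have hQR : Q ≤ R := le_of_subpairLE hle
  obtain ⟨g₁, hg₁⟩ := exists_normal_of_normalizerIn hM hRg.1 hQR he hle
  obtain ⟨c, hc, hcv⟩ := exists_coeff_of_isNormalSubpair hM hg₁
  have hcQ : c ∈ Subgroup.centralizer (Q : Set G) := Subgroup.centralizer_le hg₁.2.2.1 hc
  rw [coeff_eq_of_mem hcQ] at hcv
  set R₁ : Subgroup G := R ⊓ Subgroup.normalizer (Q : Set G) with hR₁
  have hR₁p : IsPGroup p R₁ := hg₁.2.1.1
  have hAp : IsPGroup p ((R₁ ⊓ Subgroup.centralizer (Q : Set G)).subgroupOf (Subgroup.centralizer (Q : Set G))) :=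
    (hR₁p.to_le inf_le_left).comap_of_injective _ (Subgroup.subtype_injective _)
  obtain ⟨x, hx⟩ := (exists_coeff_centralizer_iff hM he hZ hAp).mp
    ⟨⟨c, hcQ⟩, memLocalRing_blockCoeff he _, hcv, ⟨c, hcQ⟩, IsConj.refl _, by
      rw [Subgroup.mem_centralizer_iff]
      rintro ⟨a, haQ⟩ ha
      have ha' := (Subgroup.mem_inf.mp (Subgroup.mem_subgroupOf.mp ha)).1
      apply Subtype.ext
      exact Subgroup.mem_centralizer_iff.mp hc a ha'⟩
  have hAQ : ∀ a ∈ R₁, a ∈ Subgroup.centralizer (Q : Set G) → a ∈ Q := by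
    intro a ha ha1
    have h1 : (⟨a, ha1⟩ : Subgroup.centralizer (Q : Set G)) ∈
        (R₁ ⊓ Subgroup.centralizer (Q : Set G)).subgroupOf (Subgroup.centralizer (Q : Set G)) :=
      Subgroup.mem_subgroupOf.mpr (Subgroup.mem_inf.mpr ⟨ha, ha1⟩)
    have h2 := hx ⟨_, h1, rfl⟩
    -- central, so the conjugate is `a`
    have h3' : (MulAut.conj x).toMonoidHom (⟨a, ha1⟩ : Subgroup.centralizer (Q : Set G)) ∈ cenZ Q := h2
    have h4 := Subgroup.mem_center_iff.mp (cenZ_le_center h3') x⁻¹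
    have h5 : (MulAut.conj x).toMonoidHom (⟨a, ha1⟩ : Subgroup.centralizer (Q : Set G)) =
        ⟨a, ha1⟩ := by
      have e1 : x⁻¹ * (x * ⟨a, ha1⟩ * x⁻¹) = (x * ⟨a, ha1⟩ * x⁻¹) * x⁻¹ := h4
      have e2 : x * (⟨a, ha1⟩ : Subgroup.centralizer (Q : Set G)) * x⁻¹ = ⟨a, ha1⟩ := by
        have e3 : x⁻¹ * (x * ⟨a, ha1⟩ * x⁻¹) = (⟨a, ha1⟩ : Subgroup.centralizer (Q : Set G)) * x⁻¹ := by group
        rw [e3] at e1
        exact (mul_right_cancel e1).symm
      exact e2
    rw [h5] at h3'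
    exact (Subgroup.mem_inf.mp (Subgroup.mem_subgroupOf.mp h3')).1
  have hR₁Q : ∀ r ∈ R₁, r ∈ Q := by
    intro r hr
    have hrp : ∃ k : ℕ, orderOf r = p ^ k := by
      have h1 := IsPGroup.iff_orderOf.mp hR₁p ⟨r, hr⟩
      obtain ⟨k, hk⟩ := h1
      exact ⟨k, by rw [← hk]; exact Subgroup.orderOf_coe (⟨r, hr⟩ : R₁)⟩
    have hr3 := h3 r hr.2 (hg₁.2.2.2.2.1 r hr) hrp
    have hCN : Subgroup.centralizer (Q : Set G) ≤ Subgroup.normalizer (Q : Set G) := centralizer_le_normalizer'' Q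
    have hr4 : r ∈ ((Subgroup.centralizer (Q : Set G) ⊔ Q : Subgroup G) : Set G) := by
      rw [sup_comm]
      exact hr3
    rw [Subgroup.coe_mul_of_left_le_normalizer_right _ _ hCN] at hr4
    obtain ⟨d, hd, q, hq, hdq⟩ := Set.mem_mul.mp hr4
    have hqR : q ∈ R₁ := hg₁.2.2.1 hq
    have hdR : d ∈ R₁ := by
      have : d = r * q⁻¹ := by rw [← hdq]; group
      rw [this]
      exact R₁.mul_mem hr (R₁.inv_mem hqR)
    rw [← hdq]
    exact Q.mul_mem (hAQ d hdR hd) hq
  by_contra hne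
  have hlt : Q < R := lt_of_le_of_ne hQR (fun h => hne h.symm)
  -- normalizer condition in the `p`-group `R`
  have hRp : IsPGroup p R := hRg.1.1
  haveI := hRp.isNilpotent
  have hsub : Q.subgroupOf R < ⊤ := by
    refine lt_top_iff_ne_top.mpr fun h => hne (le_antisymm ?_ hQR)
    intro r hr
    have : (⟨r, hr⟩ : R) ∈ Q.subgroupOf R := h ▸ Subgroup.mem_top _
    exact Subgroup.mem_subgroupOf.mp this
  have hnor := Group.normalizerCondition_of_isNilpotent (G := R) _ hsub
  obtain ⟨r, hr, hrn⟩ := SetLike.exists_of_lt hnor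
  apply hrn
  have hrN : (r : G) ∈ Subgroup.normalizer (Q : Set G) := ?_
  · exact Subgroup.mem_subgroupOf.mpr (hR₁Q _ ⟨r.2, hrN⟩)
  rw [Subgroup.mem_normalizer_iff]
  intro q
  constructor
  · intro hq
    have := (Subgroup.mem_normalizer_iff.mp hr ⟨q, hQR hq⟩).mp (Subgroup.mem_subgroupOf.mpr hq)
    exact Subgroup.mem_subgroupOf.mp this
  · intro hq
    have hqR : q ∈ R := by
      have h1 : (r : G) * q * (r : G)⁻¹ ∈ R := hQR hq
      have h2 : q = (r : G)⁻¹ * ((r : G) * q * (r : G)⁻¹) * r := by group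
      rw [h2]
      exact R.mul_mem (R.mul_mem (R.inv_mem r.2) h1) r.2
    have := (Subgroup.mem_normalizer_iff.mp hr ⟨q, hqR⟩).mpr (Subgroup.mem_subgroupOf.mpr hq)
    exact Subgroup.mem_subgroupOf.mp this

end Cfsg.Agent.Lib.BlockNil.MaxChar
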